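import Cfsg.Agent.H929.RIM.OwnWitt
import Cfsg.Agent.KFacts.RgdFiltClass
import Cfsg.Agent.H325.RIM.Surv

/-!
# S4816, own characteristic: rows of the classical groups of rank at least three (helper929)

`own_ominus`, `own_oodd` : the fields of `H325.RIM.RowsNB`; `nball_psp`, `nball_psu` : the ranks at least three.
-/

set_option autoImplicit false

namespace Cfsg.Agent.H929.RIM

open Cfsg Cfsg.Agent.H665.RIM Cfsg.Agent.H325.RIM Cfsg.Agent.OrdDiv
open Cfsg.Agent.Nodes.TypeC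
open Cfsg.Agent.Nodes.WittU Cfsg.Agent.Nodes.WittInst Cfsg.Agent.Nodes.WittAll
open QuadraticMap
open Cfsg.Agent.LieClassical Cfsg.Agent.LieClassical.OrthCore Cfsg.Agent.LieClassical.OrthTrans
open Cfsg.Agent.LieClassical.OrthSimple Cfsg.Agent.LieClassical.OrthFinite
open Cfsg.Agent.LieClassical.OrthForms
open Cfsg.Agent.TitsThree Cfsg.Agent.TitsThree.WBridge Cfsg.Agent.TitsThree.KSideO Cfsg.Agent.TitsThree.StdData

universe u

theorem charP_of_dvd {F : Type u} [Field F] [Fintype F] {p q k : ℕ} (hp : p.Prime) (hF : Fintype.card F = q ^ k)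
    (hpq : p ∣ q) (hk : k ≠ 0) : CharP F p := by
  obtain ⟨r, hr⟩ := CharP.exists F
  have hrp : r.Prime := (CharP.char_is_prime_or_zero F r).resolve_right (CharP.char_ne_zero_of_finite F r)
  have : Fact r.Prime := ⟨hrp⟩
  obtain ⟨s, -, hs⟩ := FiniteField.card F r
  have h1 : p ∣ r ^ (s : ℕ) := by
    rw [← hs, hF]
    exact hpq.trans (dvd_pow_self q hk)
  have h2 : p = r := (Nat.prime_dvd_prime_iff_eq hp hrp).1 (hp.dvd_of_dvd_pow h1)
  rw [h2]
  exact hr

theorem two_ne {F : Type u} [Field F] {p : ℕ} [hp : Fact p.Prime] [CharP F p] (hp2 : p ≠ 2) : (2 : F) ≠ 0 := by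
  intro h
  have h1 : ((2 : ℕ) : F) = 0 := by exact_mod_cast h
  rw [CharP.cast_eq_zero_iff F p] at h1
  exact hp2 ((Nat.prime_dvd_prime_iff_eq hp.out Nat.prime_two).1 h1)

theorem nball_odd {F : Type} [Field F] [Finite F] {m p : ℕ} [Fact p.Prime] [CharP F p] (hp2 : p ≠ 2) (hm : 3 ≤ m) :
    NBall p (Cfsg.POmega F (Cfsg.quadFormOdd m F)) := by
  have h2 := two_ne (F := F) hp2
  rw [← coe_oddForm]
  have hG : LieClassical.OrthTrans.Good (oddForm m F) := by
    apply good_of_finite (nondeg_oddForm m F h2)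
    rw [Module.finrank_fintype_fun_eq_card, Fintype.card_sum, Fintype.card_sum, Fintype.card_fin,
      Fintype.card_unit]
    omega
  have hp : ((embOdd m F).ngt ⟨1, -1 ^ 2, rfl⟩).c ≠ 0 := by
    change (1 : F)⁻¹ * (-1 ^ 2) ≠ 0
    simp
  exact nball_model (model (wodd m F) hG ⟨_, hp⟩) (AmbT.of_amb (amb_O_of_two _ h2) p) hp hm

theorem nball_minus {F : Type} [Field F] [Finite F] (a b : F)
    (hab : ∀ z₁ z₂ : F, z₁ ^ 2 + a * z₁ * z₂ + b * z₂ ^ 2 = 0 → z₁ = 0 ∧ z₂ = 0) {m p : ℕ} [Fact p.Prime] [CharP F p]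
    (hp2 : p ≠ 2) (hm : 3 ≤ m) : NBall p (Cfsg.POmega F (Cfsg.quadFormMinus m F a b)) := by
  have h2 := two_ne (F := F) hp2
  rw [← coe_minusForm]
  have hG : LieClassical.OrthTrans.Good (minusForm m F a b) := by
    apply good_of_finite (nondeg_minusForm m F a b hab)
    rw [Module.finrank_fintype_fun_eq_card, Fintype.card_sum, Fintype.card_sum, Fintype.card_fin,
      Fintype.card_fin]
    omega
  have hp : ((embMinus m F a b hab).ngt ⟨(1, 0), -nf a b (1, 0), rfl⟩).c ≠ 0 := by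
    change (1 : F)⁻¹ * (-nf a b (1, 0)) ≠ 0
    simp [nf]
  exact nball_model (model (wminus m F a b hab) hG ⟨_, hp⟩) (AmbT.of_amb (amb_O_of_two _ h2) p) hp hm

theorem nball_psp {F : Type} [Field F] [Finite F] {m p : ℕ} [Fact p.Prime] [CharP F p] (hm : 3 ≤ m) :
    NBall p (PSp m F) :=
  nball_model (KInstSp.model m F) (AmbT.of_amb amb_Sp p) (p0 := SpIdent.adm 1) one_ne_zero hm

theorem nball_psu {F : Type} [Field F] [Fintype F] {q N p : ℕ} (hF : Fintype.card F = q ^ 2) (hN : 6 ≤ N)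
    [Fact p.Prime] [CharP F p] : NBall p (PSU N F q) := by
  obtain ⟨m, hm⟩ : ∃ m, N = 2 * m ∨ N = 2 * m + 1 := ⟨N / 2, by omega⟩
  obtain ⟨W, -⟩ := exists_wframe hF hm
  obtain ⟨p0, hp0, -⟩ := exists_adm hF W
  exact nball_model (KInstU.model hF (by omega) W) (AmbT.of_amb (amb_U hF W) p) hp0 (by omega)

/-- the field `own_oodd` of `RowsNB` -/
theorem own_oodd (p m q : ℕ) (hp : p.Prime) (hp2 : p ≠ 2) (hpq : p ∣ q) : NBRow p (.oodd m q) := by
  intro S _ _ hS _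
  obtain ⟨⟨F, _, _, hF, ⟨e⟩⟩, ⟨hm, -, -⟩, -, -⟩ := hS
  have : Fact p.Prime := ⟨hp⟩
  have : CharP F p := charP_of_dvd (k := 1) hp (by rw [hF, pow_one]) hpq one_ne_zero
  exact NBall.congr e (nball_odd hp2 hm)

/-- the field `own_ominus` of `RowsNB` -/
theorem own_ominus (p m q : ℕ) (hp : p.Prime) (hp2 : p ≠ 2) (hpq : p ∣ q) : NBRow p (.ominus m q) := by
  intro S _ _ hS _
  obtain ⟨⟨F, _, _, a, b, hF, hab, ⟨e⟩⟩, ⟨hm, -⟩, -, -⟩ := hS
  have : Fact p.Prime := ⟨hp⟩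
  have : CharP F p := charP_of_dvd (k := 1) hp (by rw [hF, pow_one]) hpq one_ne_zero
  exact NBall.congr e (nball_minus a b hab hp2 (by omega))

end Cfsg.Agent.H929.RIM
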