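import Cfsg.Agent.H963.RIM.OwnC
import Cfsg.Agent.H948.Ppd.NdWitt

/-!
# S4816, own characteristic: the groups with a Witt frame of rank at least three (helper929)

`nball_model` : `NBall p T₀` for a finite group `T₀` modelled on a Witt frame of rank `n ≥ 3` over a field of characteristic
`p` : the node `0` is `SL_2` on two hyperbolic planes, the third plane is fixed, so the homomorphism to `T₀` is injective.
-/

set_option autoImplicit false

namespace Cfsg.Agent.H929.RIM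

open Cfsg Cfsg.Agent.H665.RIM Cfsg.Agent.H963.RIM
open CoxeterSystem Cfsg.Agent.ChevalleyStructure.CoxeterGeom Cfsg.Agent.Tits.Roots Cfsg.Agent.Tits.Core
  Cfsg.Agent.Nodes.Reps Cfsg.Agent.Nodes.BNOf Cfsg.Agent.Nodes.Bruhat Cfsg.Agent.Nodes.RGDLib Cfsg.Agent.Nodes.LeviDec
open Cfsg.Agent.Nodes Cfsg.Agent.Nodes.WittRoot Cfsg.Agent.Nodes.WittRGD Cfsg.Agent.Nodes.WittAll Cfsg.Agent.Nodes.TypeC
open Cfsg.Agent.TitsThree.Siegel Cfsg.Agent.TitsThree.SiegelGen Cfsg.Agent.TitsThree.WittFrame Cfsg.Agent.TitsThree.FrameCN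
open Cfsg.Agent.H911.SLTwo Cfsg.Agent.H62.FrameSL Cfsg.Agent.H948.Ppd
open scoped MatrixGroups

universe u v w

section gen

variable {K : Type w} [Field K] {V : Type v} [AddCommGroup V] [Module K V] {H : HForm K V} {n : ℕ}
  {Fr : Frame H (Fin n)} {T₀ : Type u} [Group T₀]

/-- the node `i` and its next: `SL_2` on two hyperbolic planes -/
theorem exists_long (M : Model Fr T₀) {p : ℕ} (hA : AmbT Fr p M.I) {i : Fin n} (hi : (i : ℕ) + 1 < n)
    (hij : i ≠ ⟨i + 1, hi⟩) :
    ∃ σ : SL(2, K) →* M.I, (∀ g, (σ g : V ≃ₗ[K] V) = phiS Fr hij g) ∧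
      Nd ((Tor Fr M.I).subgroupOf M.I) (fun x => (WittRoot.rg Fr x).subgroupOf M.I) i σ := by
  have hu : ∀ y, y ∈ WittRoot.rg Fr (sr i) ↔ ∃ t, phiS Fr hij (U t) = y := by
    intro y
    rw [rg_sr, PG_ne Fr (H61.SUNode.ne_nx hi), H61.SUNode.nx_of_lt hi, mem_XG]
    exact exists_congr fun t => eq_comm.trans (iff_of_eq (congrArg (· = y) (phiS_up Fr hij t).symm))
  have hl : ∀ y, y ∈ WittRoot.rg Fr (-sr i) ↔ ∃ t, phiS Fr hij (Lo t) = y := by
    intro y
    rw [rg_neg_sr, PG_ne Fr (a := ng (i, true)) (b := ng (nx i)) (H61.SUNode.ne_nx hi),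
      XG_swap Fr (a := ng (i, true)) (b := ng (nx i)) (H61.SUNode.ne_nx hi), H61.SUNode.nx_of_lt hi, mem_XG]
    exact exists_congr fun t => eq_comm.trans (iff_of_eq (congrArg (· = y) (phiS_lo Fr hij t).symm))
  exact exists_nd hA.rg_le (phiS Fr hij) hu hl (phiS_hh hij)

/-- the kernel -/
theorem phiS_eq_one {i j k : Fin n} (hij : i ≠ j) (hik : i ≠ k) (hjk : j ≠ k) {g : SL(2, K)}
    (h : ∀ v : V, ∃ a : K, phiS Fr hij g v = a • v) : g = 1 := by
  have hk : phiS Fr hij g (Fr.b (k, true)) = Fr.b (k, true) := by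
    rw [phiS_apply, linS_apply]
    simp only [H62.FrameSL.hn Fr hik.symm, H62.FrameSL.hn Fr hjk.symm]
    simp
  have key : ∀ l : Fin n, l ≠ k → phiS Fr hij g (Fr.b (l, true)) = Fr.b (l, true) := by
    intro l hlk
    obtain ⟨a, ha⟩ := h (Fr.b (l, true))
    obtain ⟨c, hc⟩ := h (Fr.b (l, true) + Fr.b (k, true))
    rw [map_add, ha, hk, smul_add] at hc
    have h1 : a • Fr.b (l, true) + (1 : K) • Fr.b (k, true) = c • Fr.b (l, true) + c • Fr.b (k, true) := by
      rw [_root_.one_smul]; exact hc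
    obtain ⟨h2, h3⟩ := indep Fr hlk h1
    rw [ha, h2, ← h3, _root_.one_smul]
  have h1 := key i hik
  have h2 := key j hjk
  rw [phiS_e] at h1
  rw [phiS_e'] at h2
  have h1' : g.1 0 0 • Fr.b (i, true) + g.1 1 0 • Fr.b (j, true) = (1 : K) • Fr.b (i, true) + (0 : K) • Fr.b (j, true) := by
    rw [h1, _root_.one_smul, zero_smul, add_zero]
  have h2' : g.1 0 1 • Fr.b (i, true) + g.1 1 1 • Fr.b (j, true) = (0 : K) • Fr.b (i, true) + (1 : K) • Fr.b (j, true) := by
    rw [h2, _root_.one_smul, zero_smul, zero_add]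
  obtain ⟨a1, a2⟩ := indep Fr hij h1'
  obtain ⟨a3, a4⟩ := indep Fr hij h2'
  apply Subtype.ext
  ext s t
  fin_cases s <;> fin_cases t
  · exact a1
  · exact a3
  · exact a2
  · exact a4

/-- **own characteristic, Witt models of rank at least three** -/
theorem nball_model [Finite K] [Finite V] [Finite T₀] (M : Model Fr T₀) {p : ℕ} [Fact p.Prime] [CharP K p]
    (hA : AmbT Fr p M.I) {p0 : Fr.Adm} (hp0 : p0.c ≠ 0) (hn : 3 ≤ n) : NBall p T₀ := by
  have hS := hasRGD_C M hA hp0 (by omega)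
  have R := rgdC_model M hA hp0 (CoxeterMatrix.B n).toCoxeterSystem
  have hWf : Finite (CoxeterMatrix.B n).Group := TypeC.finite_W (CoxeterMatrix.B n).toCoxeterSystem
  have hG1 := WittModel.G1_eq_top M (by omega : 0 < n) (CoxeterMatrix.B n).toCoxeterSystem
  let i : Fin n := ⟨0, by omega⟩
  let k : Fin n := ⟨2, by omega⟩
  have hi : (i : ℕ) + 1 < n := by change 0 + 1 < n; omega
  have hij : i ≠ ⟨i + 1, hi⟩ := by
    intro e
    have := congrArg Fin.val e
    simp only at this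
    omega
  obtain ⟨σ, hσ, N⟩ := exists_long M hA hi hij
  have hG : GG (CoxeterMatrix.B n).toCoxeterSystem (isCartan n) (WittModel.T M) (WittModel.X M) = ⊤ := by
    rw [eq_top_iff, ← hG1]
    exact le_sup_right
  refine nball_of_nd R hG hS (MonoidHom.id T₀) (fun x => ⟨x, rfl⟩) ?_ ?_ (i := i) (E := K) (M.φ.comp σ) ?_ ?_ ?_ ?_
  · intro x hx
    rw [MonoidHom.mem_ker, MonoidHom.id_apply] at hx
    rw [hx]
    exact one_mem _
  · have h1 : (MonoidHom.id T₀).ker = ⊥ := by
      rw [MonoidHom.ker_eq_bot_iff]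
      exact fun _ _ h => h
    rw [h1, Subgroup.card_bot]
    exact Nat.coprime_one_left p
  · intro t
    exact Subgroup.mem_map_of_mem _ ((N.up _).2 ⟨t, rfl⟩)
  · rintro _ ⟨y, hy, rfl⟩
    obtain ⟨t, ht⟩ := (N.up y).1 hy
    exact ⟨t, congrArg M.φ ht⟩
  · intro t
    exact Subgroup.mem_map_of_mem _ ((N.lo _).2 ⟨t, rfl⟩)
  · intro x hx
    refine phiS_eq_one (Fr := Fr) (k := k) hij (fun e => ?_) (fun e => ?_) fun v => ?_
    · have := congrArg Fin.val e
      simp only [i, k] at this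
      omega
    · have := congrArg Fin.val e
      simp only [i, k] at this
      omega
    · have h1 := M.ker v (σ x) hx
      rw [hσ] at h1
      exact h1

end gen

end Cfsg.Agent.H929.RIM
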