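import Cfsg.Agent.H46.RIM.Restr
import Cfsg.Agent.H113.PSU.Levi
import Cfsg.Agent.S2089
import Cfsg.Agent.ClassicalGeometry.GUBasic

/-!
# S4816, RIM-L-PSU: `NBall p (PSU_n(q))` from characters of `GU_n(q)` (helper929)

* `index_su` : `|GU : SU Z| ∣ gcd(n, q + 1)`;
* `su_char` : restriction to `SU_n(q)` with the central character;
* `nball_psu_of_gu` : the universal cover of `PSU_n(q)` is `SU_n(q)`;
* `gu_char_mu` : the Harish-Chandra characters of `GU_n(q)` with a prescribed central character.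
-/

set_option autoImplicit false
set_option linter.unusedSectionVars false

open scoped ComplexConjugate

namespace Cfsg.Agent.H929.RIM

open Cfsg Cfsg.Agent.Characters Cfsg.Agent.Characters.Core Cfsg.Agent.H51.Mult Cfsg.Agent.H665.RIM
open Cfsg.Agent.ClassicalGeometry.GUBasic Cfsg.Agent.H113.PSU.Descent
open Cfsg.Agent.LieClassical.SUBasic (suScalar suScalar_mem_center mem_center_SU_iff)
open Cfsg.Agent.H477.HC Cfsg.Agent.H53.HC Module

universe u v

variable {F : Type u} [Field F] {q n : ℕ}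

theorem root_pow {k : ℕ} (a : rootsOfUnity k F) : ((a : Fˣ) : F) ^ k = 1 := by
  rw [← Units.val_pow_eq_pow_val, (mem_rootsOfUnity _ _).1 a.2, Units.val_one]

/-- the scalars of norm one in `GU` -/
def scG (n : ℕ) (F : Type u) [Field F] (q : ℕ) : rootsOfUnity (q + 1) F →* GU n F q where
  toFun a := guDiag q (fun _ => ((a : Fˣ) : F)) (fun _ => root_pow a)
  map_one' := gu_ext (by
    rw [coe_guDiag]
    change Matrix.diagonal (fun _ => (1 : F)) = 1
    exact Matrix.diagonal_one)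
  map_mul' a b := gu_ext (by
    change Matrix.diagonal _ = Matrix.diagonal _ * Matrix.diagonal _
    rw [Matrix.diagonal_mul_diagonal]
    rfl)

theorem coe_scG (a : rootsOfUnity (q + 1) F) :
    (((scG n F q a : GU n F q) : GL (Fin n) F) : Matrix (Fin n) (Fin n) F) = Matrix.diagonal fun _ => ((a : Fˣ) : F) := rfl

theorem scG_injective (hn : 1 ≤ n) : Function.Injective (scG n F q) := by
  intro a b h
  apply Subtype.ext
  apply Units.ext
  have h1 := congrArg (fun g : GU n F q => ((g : GL (Fin n) F) : Matrix (Fin n) (Fin n) F) ⟨0, hn⟩ ⟨0, hn⟩) h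
  simp only [coe_scG, Matrix.diagonal_apply_eq] at h1
  exact h1

theorem scG_comm (a : rootsOfUnity (q + 1) F) (g : GU n F q) : scG n F q a * g = g * scG n F q a :=
  (Subgroup.mem_center_iff.1 (guDiag_const_mem_center q ((a : Fˣ) : F) (root_pow a)) g).symm

/-- the scalars of `SU` -/
def Zs (n : ℕ) (F : Type u) [Field F] (q : ℕ) : Subgroup Fˣ := rootsOfUnity (q + 1) F ⊓ rootsOfUnity n F

theorem zs_n (a : Zs n F q) : ((a : Fˣ) : F) ^ n = 1 := root_pow (k := n) ⟨(a : Fˣ), a.2.2⟩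

theorem zs_q (a : Zs n F q) : ((a : Fˣ) : F) ^ (q + 1) = 1 := root_pow (k := q + 1) ⟨(a : Fˣ), a.2.1⟩

/-- the scalars of `SU` -/
def scS (n : ℕ) (F : Type u) [Field F] (q : ℕ) : Zs n F q →* SU n F q where
  toFun a := suScalar q ((a : Fˣ) : F) (zs_n a) (zs_q a)
  map_one' := by
    apply Subtype.ext
    apply Subtype.ext
    change Matrix.diagonal (fun _ => (1 : F)) = 1
    exact Matrix.diagonal_one
  map_mul' a b := by
    apply Subtype.ext
    apply Subtype.ext
    change Matrix.diagonal _ = Matrix.diagonal _ * Matrix.diagonal _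
    rw [Matrix.diagonal_mul_diagonal]
    rfl

theorem coe_scS (a : Zs n F q) :
    (((scS n F q a : SU n F q) : Matrix.SpecialLinearGroup (Fin n) F) : Matrix (Fin n) (Fin n) F) =
      Matrix.diagonal fun _ => ((a : Fˣ) : F) := rfl

variable [Fintype F]

/-- `|GU : SU Z| ∣ gcd(n, q + 1)` -/
theorem index_su (hF : Fintype.card F = q ^ 2) (hn : 1 ≤ n) :
    (NN n F q ⊔ (scG n F q).range).index ∣ Nat.gcd n (q + 1) := by
  have h1 : ((powMonoidHom n : rootsOfUnity (q + 1) F →* rootsOfUnity (q + 1) F).range).comap (detHom n hF) ≤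
      NN n F q ⊔ (scG n F q).range := by
    rintro g ⟨c, hc⟩
    rw [powMonoidHom_apply] at hc
    rw [← inv_mul_cancel_right g (scG n F q c)]
    refine Subgroup.mul_mem_sup ?_ ⟨c, rfl⟩
    have h2 : detHom n hF (g * (scG n F q c)⁻¹) = 1 := by
      rw [map_mul, map_inv, mul_inv_eq_one, ← hc]
      apply Subtype.ext
      apply Units.ext
      rw [coe_detHom, coe_scG, Matrix.det_diagonal, Finset.prod_const, Finset.card_univ, Fintype.card_fin]
      rfl
    exact congrArg Subtype.val h2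
  refine (Subgroup.index_dvd_of_le h1).trans ?_
  rw [Subgroup.index_comap_of_surjective _ (detHom_surjective hn hF), IsCyclic.index_powMonoidHom_range,
    card_rootsOfUnity_eq hF, Nat.gcd_comm]

/-- **restriction to `SU_n(q)`** -/
theorem su_char (hF : Fintype.card F = q ^ 2) (hn : 1 ≤ n) {χ : GU n F q → ℂ} (hχ : IsIrrCharacter _ χ) {d : ℕ}
    (hd : χ 1 = d) (μ : Fˣ →* ℂˣ) (hμ : ∀ a : rootsOfUnity (q + 1) F, χ (scG n F q a) = χ 1 * (μ a : ℂˣ)) :
    ∃ (θ : SU n F q → ℂ) (e t : ℕ), IsIrrCharacter _ θ ∧ θ 1 = e ∧ e * t = d ∧ t ∣ Nat.gcd n (q + 1) ∧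
      ∀ a : Zs n F q, θ (scS n F q a) = θ 1 * (μ a : ℂˣ) := by
  classical
  let Z : Subgroup (GU n F q) := (scG n F q).range
  let e : rootsOfUnity (q + 1) F ≃* Z := MonoidHom.ofInjective (scG_injective hn)
  have he : ∀ c, ((e c : Z) : GU n F q) = scG n F q c := fun c => rfl
  have hZ : ∀ z ∈ Z, ∀ g, z * g = g * z := by
    rintro _ ⟨c, rfl⟩ g
    exact scG_comm c g
  let μZ : Z →* ℂˣ := (μ.comp (rootsOfUnity (q + 1) F).subtype).comp e.symm.toMonoidHom
  have hμ' : ∀ (z : Z) (g : GU n F q), χ (z * g) = μZ z * χ g := by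
    intro z g
    obtain ⟨c, rfl⟩ := e.surjective z
    have h1 : μZ (e c) = μ c := by
      change μ ((e.symm (e c) : rootsOfUnity (q + 1) F) : Fˣ) = μ c
      rw [e.symm_apply_apply]
    rw [h1, he, scG_comm]
    obtain ⟨l, hl⟩ := central_mul hχ (z := scG n F q c) (by
      rw [Subgroup.mem_center_iff]
      intro g
      exact (scG_comm c g).symm)
    have h2 := hl 1
    rw [one_mul, hμ, mul_comm] at h2
    rw [hl, mul_right_cancel₀ (isIrr_apply_one_ne_zero hχ) h2]
  obtain ⟨θ, a, t, hθ, ha, hat, ht, hz⟩ := H46.RIM.exists_irr_restr (NN n F q) Z hZ hχ μZ hμ' hd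
  refine ⟨θ ∘ (eSU n F q).toMonoidHom, a, t, isIrr_comp (eSU n F q).toMonoidHom (eSU n F q).surjective hθ, ?_, hat,
    ht.trans (index_su hF hn), fun c => ?_⟩
  · change θ (eSU n F q 1) = _
    rw [map_one, ha]
  · change θ (eSU n F q (scS n F q c)) = θ (eSU n F q 1) * _
    rw [map_one]
    let c' : rootsOfUnity (q + 1) F := ⟨c, c.2.1⟩
    have h1 : ((eSU n F q (scS n F q c) : NN n F q) : GU n F q) = scG n F q c' := gu_ext rfl
    have h2 : scG n F q c' ∈ NN n F q := by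
      rw [← h1]
      exact Subtype.property _
    have h3 := hz _ h2 ⟨c', rfl⟩
    have h4 : eSU n F q (scS n F q c) = ⟨scG n F q c', h2⟩ := Subtype.ext h1
    rw [h4, h3]
    have h5 : (⟨scG n F q c', ⟨c', rfl⟩⟩ : Z) = e c' := rfl
    rw [h5]
    change θ 1 * ((μ ((e.symm (e c') : rootsOfUnity (q + 1) F) : Fˣ) : ℂˣ) : ℂ) = _
    rw [e.symm_apply_apply]

/-- **`NBall` for `PSU_n(q)` from characters of `GU_n(q)`** -/
theorem nball_psu_of_gu {p : ℕ} (hF : Fintype.card F = q ^ 2) (hn : 3 ≤ n) (h3 : ¬ (n = 3 ∧ q = 2))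
    (hexc : (n, q) ∉ ({(4, 2), (4, 3), (6, 2)} : Set (ℕ × ℕ)))
    (H : ∀ m : ℕ, 1 < m → m ∣ Nat.gcd n (q + 1) → ¬ p ∣ m → ∀ μ : Fˣ →* ℂˣ,
      ∃ (χ : GU n F q → ℂ) (d : ℕ), IsIrrCharacter _ χ ∧ χ 1 = d ∧
        (∀ c t : ℕ, t ∣ Nat.gcd n (q + 1) → c * t = d → p ∣ c) ∧
        ∀ a : rootsOfUnity (q + 1) F, χ (scG n F q a) = χ 1 * (μ a : ℂˣ)) :
    NBall p (PSU n F q) := by
  classical
  have hperf := LieClassical.HermPerfect.commutator_SU_eq_top hF hn h3
  have hσ : PCE (QuotientGroup.mk' (Subgroup.center (SU n F q))) :=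
    ⟨QuotientGroup.mk'_surjective _, by rw [QuotientGroup.ker_mk'], hperf⟩
  have hA := Cfsg.Agent.S2089.result (F := F) n q hF hn h3 hexc
  have hck : Nat.card (QuotientGroup.mk' (Subgroup.center (SU n F q))).ker = Nat.gcd n (q + 1) := by
    rw [QuotientGroup.ker_mk', Cfsg.Agent.S0279.result hF n hn]
  refine H46.RIM.nball_of_card hA hσ (by
    rw [hck]
    exact (Nat.card_zmod _).symm) fun l hl hpl => ?_
  have hmem : ∀ c, scS n F q c ∈ (QuotientGroup.mk' (Subgroup.center (SU n F q))).ker := fun c => by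
    rw [QuotientGroup.ker_mk']
    exact suScalar_mem_center q _ (zs_n c) (zs_q c)
  let j : Zs n F q →* (QuotientGroup.mk' (Subgroup.center (SU n F q))).ker := (scS n F q).codRestrict _ hmem
  have hj : Function.Surjective j := by
    rintro ⟨z, hz⟩
    rw [QuotientGroup.ker_mk'] at hz
    obtain ⟨c, hcn, hcq, rfl⟩ := (mem_center_SU_iff hF hn z).1 hz
    have hc0 : c ≠ 0 := by
      rintro rfl
      rw [zero_pow (Nat.succ_ne_zero q)] at hcq
      exact zero_ne_one hcq
    refine ⟨⟨Units.mk0 c hc0, ?_, ?_⟩, ?_⟩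
    · change Units.mk0 c hc0 ∈ rootsOfUnity (q + 1) F
      rw [mem_rootsOfUnity]
      apply Units.ext
      rw [Units.val_pow_eq_pow_val, Units.val_mk0, hcq, Units.val_one]
    · change Units.mk0 c hc0 ∈ rootsOfUnity n F
      rw [mem_rootsOfUnity]
      apply Units.ext
      rw [Units.val_pow_eq_pow_val, Units.val_mk0, hcn, Units.val_one]
    · apply Subtype.ext
      apply Subtype.ext
      apply Subtype.ext
      rfl
  obtain ⟨μ, hμ⟩ := MonoidHom.domRestrict_surjective (M := ℂ) (Zs n F q) (l.comp j)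
  have hμ' : ∀ c : Zs n F q, μ c = l (j c) := fun c => DFunLike.congr_fun hμ c
  obtain ⟨χ, d, hχ, hd, hpd, hc⟩ := H (Nat.card l.range) (by
    obtain ⟨z, hz⟩ := hl
    have h1 : l.range ≠ ⊥ := by
      intro h
      apply hz
      have h2 : l z ∈ l.range := ⟨z, rfl⟩
      rw [h] at h2
      exact h2
    have h2 : Nat.card l.range ≠ 1 := fun h => h1 (Subgroup.eq_bot_of_card_eq _ h)
    have h3 : 0 < Nat.card l.range := Nat.card_pos
    omega) (by
    rw [← hck]
    exact Subgroup.card_range_dvd l) hpl μ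
  obtain ⟨θ, e, t, hθ, he, het, ht, hz⟩ := su_char hF (by omega) hχ hd μ hc
  refine ⟨θ, hθ, fun z => ?_, ?_⟩
  · obtain ⟨c, rfl⟩ := hj z
    rw [← hμ' c, ← hz c]
    rfl
  · rw [Blocks.Basic.charDegree_of_eq he]
    exact hpd e t ht het

/-- the value at a scalar -/
theorem hc_scal {K : Type u} [Field K] {V : Type v} [AddCommGroup V] [Module K V] (F : CForm K V) {k : ℕ}
    [Fintype (F.Om k)] [FiniteDimensional K V] {c : GL (Fin k) K → ℂ} (hcl : IsClassFunction _ c)
    {z : F.iso} {a : Kˣ} (hz : ∀ v, (z : V ≃ₗ[K] V) v = (a : K) • v) {s : ℂ}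
    (hca : c (Matrix.GeneralLinearGroup.scalar (Fin k) a) = c 1 * s) :
    F.hc c (fun _ _ => 1) z = F.hc c (fun _ _ => 1) 1 * s := by
  classical
  unfold CForm.hc
  rw [Finset.sum_mul]
  refine Finset.sum_congr rfl fun W _ => ?_
  rw [mul_one, mul_one]
  have h : W.1.map (F.iso.subtype z : V →ₗ[K] V) = W.1 := map_eq_of_le F.iso.subtype fun w hw => by
    change (z : V ≃ₗ[K] V) w ∈ W.1
    rw [hz]; exact W.1.smul_mem _ hw
  have h' : W.1.map (F.iso.subtype 1 : V →ₗ[K] V) = W.1 := Submodule.map_id _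
  rw [flagTerm_of F.iso.subtype c h, flagTerm_of F.iso.subtype c h', cl_eq hcl (finBasisOfFinrankEq K W.1 W.2.2)]
  have e2 : res (F.iso.subtype 1) W.1 h' = 1 := by
    ext w
    rfl
  rw [e2, cl_one hcl (finBasisOfFinrankEq K W.1 W.2.2), ← hca]
  congr 1
  ext i j
  rw [coe_glE, LinearMap.toMatrix_apply]
  have e2 : (res (F.iso.subtype z) W.1 h : W.1 →ₗ[K] W.1) (finBasisOfFinrankEq K W.1 W.2.2 j) =
      (a : K) • (finBasisOfFinrankEq K W.1 W.2.2 j) := Subtype.ext (hz _)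
  rw [e2, map_smul, Finsupp.smul_apply, Basis.repr_self, smul_eq_mul, Matrix.GeneralLinearGroup.coe_scalar,
    Matrix.scalar_apply, Matrix.diagonal_apply, Finsupp.single_apply]
  by_cases hij : i = j
  · simp [hij]
  · rw [if_neg hij, if_neg (Ne.symm hij), mul_zero]

/-- **characters of `GU` with a prescribed central character** -/
theorem gu_char_mu (hq : Nat.card F = q ^ 2) {k n' : ℕ} {c : GL (Fin k) F → ℂ}
    (hc : Cus F k (CForm.powHom hq) (fun z => z = 1) c) (μ : Fˣ →* ℂˣ)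
    (hcs : ∀ z : Fˣ, z ^ (q + 1) = 1 → c (Matrix.GeneralLinearGroup.scalar (Fin k) z) = c 1 * (μ z : ℂˣ)) :
    ∃ χ : GU (k + (k + n')) F q → ℂ, IsIrrCharacter _ χ ∧
      χ 1 = (dg (CForm.hermF F hq (k + (k + n'))) k : ℂ) ∧
      ∀ a : rootsOfUnity (q + 1) F, χ (scG (k + (k + n')) F q a) = χ 1 * (μ a : ℂˣ) := by
  classical
  obtain ⟨p, hp⟩ := CharP.exists F
  have hpr : p.Prime := (CharP.char_is_prime_or_zero F p).resolve_right (CharP.char_ne_zero_of_finite F p)
  have : Fact p.Prime := ⟨hpr⟩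
  obtain ⟨⟨W₀, hW₀⟩, -⟩ := CForm.hermF_frame (K := F) (p := p) hq k n'
  have := finite_Om (CForm.hermF F hq (k + (k + n'))) k
  have := finite_iso (CForm.hermF F hq (k + (k + n')))
  let _ := Fintype.ofFinite ((CForm.hermF F hq (k + (k + n'))).Om k)
  let _ := Fintype.ofFinite (CForm.hermF F hq (k + (k + n'))).iso
  have hcl := Core.isIrr_isClassFunction hc.irr
  set χ : (CForm.hermF F hq (k + (k + n'))).iso → ℂ :=
    (CForm.hermF F hq (k + (k + n'))).hc c (fun _ _ => 1) with hχd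
  have hχ : IsIrrCharacter _ χ := (CForm.hermF F hq (k + (k + n'))).isIrr_hc_one hc.irr hc.cusp hc.dual hW₀
  have hχ1 : χ 1 = (dg (CForm.hermF F hq (k + (k + n'))) k : ℂ) := by
    rw [hχd, (CForm.hermF F hq (k + (k + n'))).hc_one hcl (fun _ _ => 1) (d := 1) (fun _ _ => rfl), hc.deg, mul_one]
    unfold dg
    rw [Nat.cast_mul]
  refine ⟨χ ∘ (isoGU hq (k + (k + n'))).toMonoidHom,
    Core.isIrr_comp (isoGU hq (k + (k + n'))).toMonoidHom (isoGU hq (k + (k + n'))).surjective hχ, ?_, ?_⟩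
  · change χ (isoGU hq (k + (k + n')) 1) = _
    rw [map_one, hχ1]
  · intro a
    change χ (isoGU hq (k + (k + n')) (scG _ F q a)) = χ (isoGU hq (k + (k + n')) 1) * _
    rw [map_one]
    refine hc_scal (CForm.hermF F hq (k + (k + n'))) hcl (a := (a : Fˣ)) (fun v => ?_) (hcs a ((mem_rootsOfUnity _ _).1 a.2))
    rw [isoGU_apply, coe_scG]
    ext i
    rw [Matrix.mulVec_diagonal]
    rfl

end Cfsg.Agent.H929.RIM
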