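import Cfsg.Agent.H929.RIM.Psu
import Cfsg.Agent.H812.RIM.CusU
import Cfsg.Agent.H812.RIM.UDeg
import Cfsg.Agent.H812.RIM.U3
import Cfsg.Agent.H325.RIM.Surv
import Cfsg.Agent.S0277

/-!
# S4816, RIM-L-PSU: the row (helper929, with the arithmetic and the cuspidal data of helper812)

`nb_psu` : `PSU_n(q)` at an odd prime `p ∤ q`, `(n, q) ≠ (4, 2), (4, 3), (6, 2)`; `row_psu` : the field `psu` of
`H325.RIM.RowsNB`.
-/

set_option autoImplicit false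

namespace Cfsg.Agent.H929.RIM

open Cfsg Cfsg.Agent.H665.RIM Cfsg.Agent.H812.RIM Cfsg.Agent.H477.HC

universe u

variable {F : Type u} [Field F] [Fintype F] {q n : ℕ}

theorem dvd_U (hF : Fintype.card F = q ^ 2) {p : ℕ} (hp : p.Prime) (hpq : ¬ p ∣ q)
    (hd : p ∣ Nat.card (PSU n F q)) : p ∣ U q n := by
  have h1 : Nat.card (PSU n F q) ∣ Nat.card (SU n F q) := Subgroup.card_quotient_dvd_card _
  have h2 : Nat.card (SU n F q) ∣ Nat.card (GU n F q) :=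
    Subgroup.card_dvd_of_injective _ H113.PSU.Descent.toGU_injective
  have h3 := hd.trans (h1.trans h2)
  rw [Cfsg.Agent.S0277.result hF n] at h3
  exact (hp.dvd_mul.1 h3).resolve_left fun h => hpq (hp.dvd_of_dvd_pow h)

/-- the characters -/
theorem exists_gu (hF : Fintype.card F = q ^ 2) {k : ℕ} (hk : 1 ≤ k) (hkn : 2 * k ≤ n) (h1 : k = 1 → 4 ≤ q) {p T : ℕ}
    (h : ∀ D c t : ℕ, D * ((q ^ (2 * k) - 1) * U q (n - 2 * k)) = U q n → t ∣ T → D = c * t → p ∣ c) (μ : Fˣ →* ℂˣ) :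
    ∃ (χ : GU n F q → ℂ) (d : ℕ), IsIrrCharacter _ χ ∧ χ 1 = d ∧ (∀ c t : ℕ, t ∣ T → c * t = d → p ∣ c) ∧
      ∀ a : rootsOfUnity (q + 1) F, χ (scG n F q a) = χ 1 * (μ a : ℂˣ) := by
  have hq : Nat.card F = q ^ 2 := by rw [Nat.card_eq_fintype_card, hF]
  obtain ⟨c, hc, hcs⟩ := exists_cusU_mu hq k hk h1 μ
  obtain ⟨n', rfl⟩ : ∃ n', n = k + (k + n') := ⟨n - 2 * k, by omega⟩
  obtain ⟨χ, hχ, hχ1, hχz⟩ := gu_char_mu (n' := n') hq hc μ hcs
  rw [show k + (k + n') - 2 * k = n' by omega] at h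
  exact ⟨χ, _, hχ, hχ1, dg_cond hq hk h, hχz⟩

/-- **L-PSU** : `PSU_n(q)` at an odd prime `p ∤ q`. -/
theorem nb_psu (hF : Fintype.card F = q ^ 2) (hn : 3 ≤ n) (h3 : ¬ (n = 3 ∧ q = 2))
    (hexc : (n, q) ∉ ({(4, 2), (4, 3), (6, 2)} : Set (ℕ × ℕ))) {p : ℕ} (hp : p.Prime) (hp2 : p ≠ 2) (hpq : ¬ p ∣ q)
    (hd : p ∣ Nat.card (PSU n F q)) : NBall p (PSU n F q) := by
  have hq2 : 2 ≤ q := ClassicalGeometry.GUBasic.two_le hF
  have hpU := dvd_U hF hp hpq hd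
  have hexc' := hexc
  simp only [Set.mem_insert_iff, Set.mem_singleton_iff, Prod.mk.injEq, not_or] at hexc'
  obtain ⟨h42, h43, -⟩ := hexc'
  by_cases hn3 : n = 3
  · subst hn3
    have hq : 2 < q := by
      rcases Nat.lt_or_ge 2 q with h | h
      · exact h
      · exact absurd ⟨rfl, by omega⟩ h3
    by_cases hp1 : p ∣ q - 1
    · exact nball_psu3 hF hq hp hp2 hp1
    refine nball_psu_of_gu hF hn h3 hexc fun m hm1 hm hpm μ => ?_
    have hm3 : m ∣ 3 := hm.trans (Nat.gcd_dvd_left _ _)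
    have hm3' : m = 3 := ((Nat.dvd_prime Nat.prime_three).1 hm3).resolve_left (by omega)
    subst hm3'
    have h5 : 3 ∣ q + 1 := hm.trans (Nat.gcd_dvd_right _ _)
    have hp3 : p ≠ 3 := by rintro rfl; exact hpm dvd_rfl
    refine exists_gu hF (k := 1) le_rfl (by omega) (fun _ => by omega) (fun D c t hD ht hc => ?_) μ
    exact three hq2 hp hp3 hpU hp1 D c t hD (ht.trans (Nat.gcd_dvd_left _ _)) hc
  · refine nball_psu_of_gu hF hn h3 hexc fun m hm1 hm hpm μ => ?_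
    obtain ⟨k, hk, hkn, hk1, hD⟩ := exists_k hq2 (n := n) (by omega) hp hpU
    refine exists_gu hF hk hkn (fun h => ?_) (fun D c t h4 h5 h6 => hD D c t h4 (h5.trans (Nat.gcd_dvd_right _ _)) h6) μ
    obtain ⟨hn5, -⟩ := hk1 h
    have hmq : m ∣ q + 1 := hm.trans (Nat.gcd_dvd_right _ _)
    have hmn : m ∣ n := hm.trans (Nat.gcd_dvd_left _ _)
    by_contra hq4
    have hq' : q = 2 ∨ q = 3 := by omega
    have hn' : n = 4 ∨ n = 5 := by omega
    rcases hn' with rfl | rfl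
    · rcases hq' with rfl | rfl
      · exact h42 ⟨rfl, rfl⟩
      · exact h43 ⟨rfl, rfl⟩
    · have h5 : m = 5 := ((Nat.dvd_prime Nat.prime_five).1 hmn).resolve_left (by omega)
      subst h5
      rcases hq' with rfl | rfl
      · exact absurd hmq (by decide)
      · exact absurd hmq (by decide)

open Cfsg.Agent.H325.RIM Cfsg.Agent.OrdDiv in
/-- the field `psu` of `H325.RIM.RowsNB` -/
theorem row_psu (p n q : ℕ) (hp : p.Prime) (hp2 : p ≠ 2) (hpq : ¬ p ∣ q)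
    (hexc : (n, q) ∉ ({(4, 2), (4, 3), (6, 2)} : Set (ℕ × ℕ))) : NBRow p (.psu n q) := by
  intro S _ _ hS hd
  obtain ⟨⟨F, _, _, hF, ⟨e⟩⟩, ⟨hn, h3, -⟩, -, -⟩ := hS
  rw [Nat.card_congr e.toEquiv] at hd
  exact NBall.congr e (nb_psu hF hn h3 hexc hp hp2 hpq hd)

end Cfsg.Agent.H929.RIM
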